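import Mathlib
import Cfsg.Prelude.Def_BaumannBlocks
import Cfsg.Agent.Lib.Helper56.CentrallyLarge

set_option autoImplicit false
open scoped Pointwise

namespace Cfsg.Agent.Lib.Helper56

variable {G : Type*} [Group G]

theorem isMulCommutative_sup {H K : Subgroup G} (hH : IsMulCommutative H) (hK : IsMulCommutative K)
    (hHK : H ≤ Subgroup.centralizer (K : Set G)) : IsMulCommutative (H ⊔ K : Subgroup G) := by
  rw [← Subgroup.le_centralizer_iff_isMulCommutative] at hH hK ⊢
  rw [centralizer_sup]
  exact sup_le (le_inf hH hHK) (le_inf (Subgroup.le_centralizer_iff.mp hHK) hK)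

theorem isMulCommutative_of_le {H K : Subgroup G} (hK : IsMulCommutative K) (h : H ≤ K) :
    IsMulCommutative H := by
  rw [← Subgroup.le_centralizer_iff_isMulCommutative] at hK ⊢
  exact h.trans (hK.trans (centralizer_anti h))

theorem maxAb_centralizer_eq [Finite G] {A : Subgroup G} (hA : A ∈ Cfsg.maxAbelianSubgroups G) :
    Subgroup.centralizer (A : Set G) = A := by
  apply le_antisymm
  · intro x hx
    have hz : Subgroup.zpowers x ≤ Subgroup.centralizer (A : Set G) := by
      rw [Subgroup.zpowers_le]; exact hx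
    have hab : IsMulCommutative (A ⊔ Subgroup.zpowers x : Subgroup G) :=
      isMulCommutative_sup hA.1 inferInstance (Subgroup.le_centralizer_iff.mp hz)
    have h1 := hA.2 _ hab
    have h2 : A = A ⊔ Subgroup.zpowers x := Subgroup.eq_of_le_of_card_ge le_sup_left h1
    rw [h2]
    exact (le_sup_right : Subgroup.zpowers x ≤ _) (Subgroup.mem_zpowers x)
  · exact Subgroup.le_centralizer_iff_isMulCommutative.mpr hA.1

theorem exists_maxAb [Finite G] : ∃ A : Subgroup G, A ∈ Cfsg.maxAbelianSubgroups G := by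
  classical
  obtain ⟨A, hA, hmax⟩ := Set.exists_max_image {B : Subgroup G | IsMulCommutative B}
    (fun B => Nat.card B) (Set.toFinite _) ⟨⊥, (inferInstance : IsMulCommutative (⊥ : Subgroup G))⟩
  exact ⟨A, hA, hmax⟩

theorem center_isMulCommutative (Q : Subgroup G) :
    IsMulCommutative (Q ⊓ Subgroup.centralizer (Q : Set G) : Subgroup G) := by
  rw [← Subgroup.le_centralizer_iff_isMulCommutative]
  exact inf_le_right.trans (centralizer_anti inf_le_left)

/-- `(Q ∩ A) Z(Q)` is abelian -/
theorem star_isMulCommutative {Q A : Subgroup G} (hA : IsMulCommutative A) :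
    IsMulCommutative ((Q ⊓ A) ⊔ (Q ⊓ Subgroup.centralizer (Q : Set G)) : Subgroup G) := by
  apply isMulCommutative_sup (isMulCommutative_of_le hA inf_le_right) (center_isMulCommutative Q)
  rw [Subgroup.le_centralizer_iff]
  exact inf_le_right.trans (centralizer_anti inf_le_left)

theorem cl_sup_maxAb [Finite G] {Q A : Subgroup G} (hQ : Cfsg.IsCentrallyLarge Q)
    (hA : A ∈ Cfsg.maxAbelianSubgroups G) :
    Cfsg.IsCentrallyLarge (Q ⊔ A) ∧ ((Q ⊔ A : Subgroup G) : Set G) = (Q : Set G) * (A : Set G) ∧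
      ((Q ⊓ A) ⊔ (Q ⊓ Subgroup.centralizer (Q : Set G)) : Subgroup G) ∈ Cfsg.maxAbelianSubgroups G := by
  have hQ' := (isCentrallyLarge_iff Q).mp hQ
  have hCA := maxAb_centralizer_eq hA
  set Z := Q ⊓ Subgroup.centralizer (Q : Set G) with hZ
  have hZeq : Subgroup.centralizer (Q : Set G) = Z := (inf_eq_right.mpr hQ'.2).symm
  set As := (Q ⊓ A) ⊔ Z with hAs
  have hAsab : IsMulCommutative As := star_isMulCommutative hA.1
  have h1 : Nat.card As ≤ Nat.card A := hA.2 _ hAsab
  have h2 := card_mul_card_le (Q ⊓ A) Z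
  have hI : (Q ⊓ A) ⊓ Z = Z ⊓ A := by
    rw [hZ]
    apply le_antisymm
    · exact le_inf inf_le_right (inf_le_left.trans inf_le_right)
    · exact le_inf (le_inf (inf_le_left.trans inf_le_left) inf_le_right) inf_le_left
  rw [hI] at h2
  have hCT : Subgroup.centralizer ((Q ⊔ A : Subgroup G) : Set G) = Z ⊓ A := by
    rw [centralizer_sup, hCA, hZeq]
  have h3 := card_mul_card_le Q A
  have hM : Nat.card Q * Nat.card Z = Cfsg.maxCentralizerProduct G := by
    rw [← hZeq]; exact hQ'.1
  have hTle := cdm_le_max (Q ⊔ A)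
  unfold cdm at hTle
  rw [hCT, ← hM] at hTle
  set t := Nat.card (Q ⊔ A : Subgroup G)
  set i := Nat.card (Z ⊓ A : Subgroup G)
  set d := Nat.card (Q ⊓ A : Subgroup G)
  set q := Nat.card Q
  set a := Nat.card A
  set z := Nat.card Z
  set as := Nat.card As
  have hdpos : 0 < d := Nat.card_pos
  have hipos : 0 < i := Nat.card_pos
  have hqpos : 0 < q := Nat.card_pos
  -- chain: q*z*d ≤ q*as*i ≤ q*a*i ≤ t*d*i ≤ q*z*d
  have c1 : q * (d * z) ≤ q * (as * i) := Nat.mul_le_mul_left _ h2
  have c2 : q * (as * i) ≤ q * (a * i) := Nat.mul_le_mul_left _ (Nat.mul_le_mul_right _ h1)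
  have c3 : q * (a * i) ≤ (t * d) * i := by
    calc q * (a * i) = (q * a) * i := by ring
      _ ≤ (t * d) * i := Nat.mul_le_mul_right _ h3
  have c4 : (t * d) * i ≤ q * (d * z) := by
    calc (t * d) * i = (t * i) * d := by ring
      _ ≤ (q * z) * d := Nat.mul_le_mul_right _ hTle
      _ = _ := by ring
  have e3 : q * (a * i) = (t * d) * i := le_antisymm c3 (c4.trans (c1.trans c2))
  have e2 : q * (as * i) = q * (a * i) := le_antisymm c2 (c3.trans (c4.trans c1))
  have e4 : (t * d) * i = q * (d * z) := le_antisymm c4 (c1.trans (c2.trans c3))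
  have f3 : q * a = t * d := by
    have : (q * a) * i = (t * d) * i := by rw [← e3]; ring
    exact Nat.eq_of_mul_eq_mul_right hipos this
  have f2 : as = a := by
    have := Nat.eq_of_mul_eq_mul_left hqpos e2
    exact Nat.eq_of_mul_eq_mul_right hipos this
  have f4 : t * i = q * z := by
    have : (t * i) * d = (q * z) * d := by
      calc (t * i) * d = (t * d) * i := by ring
        _ = q * (d * z) := e4
        _ = _ := by ring
    exact Nat.eq_of_mul_eq_mul_right hdpos this
  have hTmem : Cfsg.IsCentralizerLarge (Q ⊔ A) := by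
    rw [isCentralizerLarge_iff]
    unfold cdm
    rw [hCT, ← hM]; exact f4
  refine ⟨cl_of_le hQ hTmem le_sup_left, mul_eq_of_card_le' Q A f3.ge, hAsab, ?_⟩
  intro B hB
  exact (hA.2 B hB).trans f2.ge

theorem maxAb_le_cl_join [Finite G] {A : Subgroup G} (hA : A ∈ Cfsg.maxAbelianSubgroups G) :
    A ≤ Cfsg.centrallyLargeJoin G := by
  have h := (cl_sup_maxAb (cl_join (G := G)) hA).1
  exact le_sup_right.trans (le_sSup h)

theorem centralizer_thompsonA_le [Finite G] :
    Subgroup.centralizer (Cfsg.thompsonSubgroupA G : Set G) ≤ Cfsg.thompsonSubgroupA G := by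
  obtain ⟨A, hA⟩ := exists_maxAb (G := G)
  have hle : A ≤ Cfsg.thompsonSubgroupA G := le_sSup hA
  calc Subgroup.centralizer (Cfsg.thompsonSubgroupA G : Set G) ≤ Subgroup.centralizer (A : Set G) :=
        centralizer_anti hle
    _ = A := maxAb_centralizer_eq hA
    _ ≤ _ := hle

/-- a centrally large subgroup containing `J` contains `C(Z(J))` -/
theorem centralizer_ZJ_le [Finite G] {T : Subgroup G} (hT : Cfsg.IsCentrallyLarge T)
    (hJ : Cfsg.thompsonSubgroupA G ≤ T) :
    Subgroup.centralizer ((Cfsg.thompsonSubgroupA G ⊓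
      Subgroup.centralizer (Cfsg.thompsonSubgroupA G : Set G) : Subgroup G) : Set G) ≤ T := by
  have hT' := (isCentrallyLarge_iff T).mp hT
  have h1 : Subgroup.centralizer (T : Set G) ≤ Cfsg.thompsonSubgroupA G ⊓
      Subgroup.centralizer (Cfsg.thompsonSubgroupA G : Set G) :=
    le_inf ((centralizer_anti hJ).trans centralizer_thompsonA_le) (centralizer_anti hJ)
  calc _ ≤ Subgroup.centralizer ((Subgroup.centralizer (T : Set G) : Subgroup G) : Set G) :=
        centralizer_anti h1
    _ = T := (cd_centralizer hT'.1).2.symm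

end Cfsg.Agent.Lib.Helper56
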