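import Mathlib
import Cfsg.Prelude.Def_BaumannBlocks
import Cfsg.Agent.Lib.Helper56.CentrallyLarge2

set_option autoImplicit false
open scoped Pointwise
open scoped commutatorElement

namespace Cfsg.Agent.Lib.Helper56

variable {G : Type*} [Group G]

theorem cl_centralizer_eq [Finite G] {Q : Subgroup G} (hQ : Cfsg.IsCentrallyLarge Q) :
    Q ⊓ Subgroup.centralizer (Q : Set G) = Subgroup.centralizer (Q : Set G) :=
  inf_eq_right.mpr ((isCentrallyLarge_iff Q).mp hQ).2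

/-- `Q = (Q ∩ X) Z(Q)` for `Q` minimal centrally large and `X` centrally large -/
theorem mcl_eq_inf_sup [Finite G] {Q X : Subgroup G} (hQ : Cfsg.IsMinimalCentrallyLarge Q)
    (hX : Cfsg.IsCentrallyLarge X) :
    (Q ⊓ X) ⊔ Subgroup.centralizer (Q : Set G) = Q := by
  have hQ' := (isCentrallyLarge_iff Q).mp hQ.1
  have hX' := (isCentrallyLarge_iff X).mp hX
  have hL := cd_lattice hQ'.1 hX'.1
  have hCQ := cd_centralizer hQ'.1
  have hCX := cd_centralizer hX'.1
  have hT := (cd_lattice hL.2.1 hCQ.1).1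
  have hTle : (Q ⊓ X) ⊔ Subgroup.centralizer (Q : Set G) ≤ Q := sup_le inf_le_left hQ'.2
  apply hQ.2 _ hTle
  rw [isCentrallyLarge_iff]
  refine ⟨hT, ?_⟩
  rw [centralizer_sup, hL.2.2.2, ← hCQ.2]
  rintro x ⟨hx1, hx2⟩
  have hx1' : x ∈ (Subgroup.centralizer (Q : Set G) : Set G) * (Subgroup.centralizer (X : Set G) : Set G) := by
    rw [← cd_mul hCQ.1 hCX.1]; exact hx1
  obtain ⟨y, hy, y', hy', rfl⟩ := hx1'
  have hy'Q : y' ∈ Q := by
    have : y' = y⁻¹ * (y * y') := by group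
    rw [this]
    exact Q.mul_mem (Q.inv_mem (hQ'.2 hy)) hx2
  exact Subgroup.mul_mem _ ((le_sup_right : Subgroup.centralizer (Q : Set G) ≤ _) hy)
    ((le_sup_left : Q ⊓ X ≤ _) ⟨hy'Q, hX'.2 hy'⟩)

theorem sup_coe_eq_mul_of_le_centralizer {D Y : Subgroup G}
    (h : D ≤ Subgroup.centralizer (Y : Set G)) :
    ((D ⊔ Y : Subgroup G) : Set G) = (D : Set G) * (Y : Set G) :=
  Subgroup.coe_mul_of_left_le_normalizer_right _ _
    (h.trans (Subgroup.centralizer_le_normalizer (Y : Set G)))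

/-- commutator subgroup of a central product -/
theorem commutator_sup_central {D Y : Subgroup G}
    (h : Y ≤ Subgroup.centralizer ((D ⊔ Y : Subgroup G) : Set G)) :
    ⁅D ⊔ Y, D ⊔ Y⁆ = ⁅D, D⁆ := by
  apply le_antisymm
  · rw [Subgroup.commutator_le]
    have hDY : D ≤ Subgroup.centralizer (Y : Set G) := by
      rw [Subgroup.le_centralizer_iff]
      exact h.trans (centralizer_anti le_sup_left)
    have hmul := sup_coe_eq_mul_of_le_centralizer hDY
    intro g₁ hg₁ g₂ hg₂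
    have hg₁' : g₁ ∈ (D : Set G) * (Y : Set G) := by rw [← hmul]; exact hg₁
    have hg₂' : g₂ ∈ (D : Set G) * (Y : Set G) := by rw [← hmul]; exact hg₂
    obtain ⟨d₁, hd₁, y₁, hy₁, rfl⟩ := hg₁'
    obtain ⟨d₂, hd₂, y₂, hy₂, rfl⟩ := hg₂'
    have c1 : ∀ t ∈ D ⊔ Y, t * y₁ = y₁ * t := fun t ht => (Subgroup.mem_centralizer_iff.mp (h hy₁)) t ht
    have c2 : ∀ t ∈ D ⊔ Y, t * y₂ = y₂ * t := fun t ht => (Subgroup.mem_centralizer_iff.mp (h hy₂)) t ht
    have hd₁' : d₁ ∈ D ⊔ Y := (le_sup_left : D ≤ D ⊔ Y) hd₁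
    have hd₂' : d₂ ∈ D ⊔ Y := (le_sup_left : D ≤ D ⊔ Y) hd₂
    have hy₁' : y₁ ∈ D ⊔ Y := (le_sup_right : Y ≤ D ⊔ Y) hy₁
    have e : ⁅d₁ * y₁, d₂ * y₂⁆ = ⁅d₁, d₂⁆ := by
      rw [commutatorElement_def, commutatorElement_def]
      have a1 : Commute d₁ y₁ := c1 d₁ hd₁'
      have a2 : Commute d₂ y₁ := c1 d₂ hd₂'
      have a3 : Commute d₁ y₂ := c2 d₁ hd₁'
      have a4 : Commute d₂ y₂ := c2 d₂ hd₂'
      have a5 : Commute y₁ y₂ := c2 y₁ hy₁'
      calc d₁ * y₁ * (d₂ * y₂) * (d₁ * y₁)⁻¹ * (d₂ * y₂)⁻¹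
          = d₁ * (y₁ * d₂) * y₂ * (y₁⁻¹ * d₁⁻¹) * (y₂⁻¹ * d₂⁻¹) := by simp only [mul_inv_rev]; group
        _ = d₁ * (d₂ * y₁) * y₂ * (d₁⁻¹ * y₁⁻¹) * (d₂⁻¹ * y₂⁻¹) := by
            rw [a2.eq, (a1.inv_inv).eq, (a4.inv_inv).eq]
        _ = d₁ * d₂ * (y₁ * y₂ * d₁⁻¹) * (y₁⁻¹ * d₂⁻¹) * y₂⁻¹ := by group
        _ = d₁ * d₂ * (d₁⁻¹ * (y₁ * y₂)) * (d₂⁻¹ * y₁⁻¹) * y₂⁻¹ := by
            rw [((a1.inv_left.mul_right a3.inv_left)).eq, (a2.inv_inv).eq]
        _ = d₁ * d₂ * d₁⁻¹ * (y₁ * y₂ * d₂⁻¹) * y₁⁻¹ * y₂⁻¹ := by group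
        _ = d₁ * d₂ * d₁⁻¹ * (d₂⁻¹ * (y₁ * y₂)) * y₁⁻¹ * y₂⁻¹ := by
            rw [((a2.inv_left.mul_right a4.inv_left)).eq]
        _ = d₁ * d₂ * d₁⁻¹ * d₂⁻¹ * (y₁ * y₂ * y₁⁻¹ * y₂⁻¹) := by group
        _ = d₁ * d₂ * d₁⁻¹ * d₂⁻¹ := by
            rw [a5.eq]; group
    rw [e]
    exact Subgroup.commutator_mem_commutator hd₁ hd₂
  · exact Subgroup.commutator_mono le_sup_left le_sup_left

theorem mcl_commutator_eq [Finite G] {Q X : Subgroup G} (hQ : Cfsg.IsMinimalCentrallyLarge Q)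
    (hX : Cfsg.IsCentrallyLarge X) : ⁅Q, Q⁆ = ⁅Q ⊓ X, Q ⊓ X⁆ := by
  have h := mcl_eq_inf_sup hQ hX
  have h2 := commutator_sup_central (D := Q ⊓ X) (Y := Subgroup.centralizer (Q : Set G))
    (by rw [h])
  rw [h] at h2
  exact h2

/-- `|Q| |Z(D)| = |D| |Z(Q)|` where `D = Q ∩ X` -/
theorem mcl_card_formula [Finite G] {Q X : Subgroup G} (hQ : Cfsg.IsMinimalCentrallyLarge Q)
    (hX : Cfsg.IsCentrallyLarge X) :
    Nat.card (Q ⊓ X : Subgroup G) * Nat.card (Subgroup.centralizer (Q : Set G)) =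
      Nat.card Q * Nat.card ((Q ⊓ X) ⊓ Subgroup.centralizer ((Q ⊓ X : Subgroup G) : Set G) : Subgroup G) := by
  have h := mcl_eq_inf_sup hQ hX
  have hDY : Q ⊓ X ≤ Subgroup.centralizer ((Subgroup.centralizer (Q : Set G) : Subgroup G) : Set G) :=
    inf_le_left.trans (le_centralizer_centralizer Q)
  have hYD : Subgroup.centralizer (Q : Set G) ≤ Subgroup.centralizer ((Q ⊓ X : Subgroup G) : Set G) :=
    centralizer_anti inf_le_left
  have hmul : (((Q ⊓ X) ⊔ Subgroup.centralizer (Q : Set G) : Subgroup G) : Set G) =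
      (Subgroup.centralizer (Q : Set G) : Set G) * ((Q ⊓ X : Subgroup G) : Set G) := by
    rw [sup_comm]
    exact sup_coe_eq_mul_of_le_centralizer hYD
  have h1 := card_mul_card_eq_of_mul_eq _ _ hmul
  rw [h] at h1
  rw [h1]
  have hinf : (Q ⊓ X) ⊓ Subgroup.centralizer (Q : Set G) =
      (Q ⊓ X) ⊓ Subgroup.centralizer ((Q ⊓ X : Subgroup G) : Set G) := ?_
  · rw [hinf]
  apply le_antisymm
  · exact le_inf inf_le_left (inf_le_right.trans hYD)
  · apply le_inf inf_le_left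
    rintro x ⟨hx1, hx2⟩
    have : x ∈ Subgroup.centralizer (((Q ⊓ X) ⊔ Subgroup.centralizer (Q : Set G) : Subgroup G) : Set G) := by
      rw [centralizer_sup]
      exact ⟨hx2, hDY hx1⟩
    rwa [h] at this

theorem mcl_card_eq [Finite G] {Q R : Subgroup G} (hQ : Cfsg.IsMinimalCentrallyLarge Q)
    (hR : Cfsg.IsMinimalCentrallyLarge R) :
    Nat.card Q = Nat.card R ∧
      Nat.card (Subgroup.centralizer (Q : Set G)) = Nat.card (Subgroup.centralizer (R : Set G)) := by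
  have h1 := mcl_card_formula hQ hR.1
  have h2 := mcl_card_formula hR hQ.1
  rw [inf_comm R Q] at h2
  have hQ' := ((isCentrallyLarge_iff Q).mp hQ.1).1
  have hR' := ((isCentrallyLarge_iff R).mp hR.1).1
  rw [isCentralizerLarge_iff] at hQ' hR'
  unfold cdm at hQ' hR'
  set d := Nat.card (Q ⊓ R : Subgroup G)
  set e := Nat.card ((Q ⊓ R) ⊓ Subgroup.centralizer ((Q ⊓ R : Subgroup G) : Set G) : Subgroup G)
  set q := Nat.card Q
  set r := Nat.card R
  set y := Nat.card (Subgroup.centralizer (Q : Set G))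
  set y' := Nat.card (Subgroup.centralizer (R : Set G))
  have hepos : 0 < e := Nat.card_pos
  have hqpos : 0 < q := Nat.card_pos
  have hrpos : 0 < r := Nat.card_pos
  have e1 : (q * q) * e = (r * r) * e := by
    calc (q * q) * e = q * (q * e) := by ring
      _ = q * (d * y) := by rw [h1]
      _ = d * (q * y) := by ring
      _ = d * (r * y') := by rw [hQ', hR']
      _ = r * (d * y') := by ring
      _ = r * (r * e) := by rw [h2]
      _ = _ := by ring
  have e2 : q * q = r * r := Nat.eq_of_mul_eq_mul_right hepos e1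
  have e3 : q = r := by
    exact Nat.mul_self_inj.mp e2
  refine ⟨e3, ?_⟩
  have : q * y = q * y' := by rw [hQ', e3, hR']
  exact Nat.eq_of_mul_eq_mul_left hqpos this

/-- if some minimal centrally large subgroup is abelian, they are the large abelian subgroups -/
theorem mcl_iff_maxAb_of_abelian [Finite G] {Q : Subgroup G} (hQ : Cfsg.IsMinimalCentrallyLarge Q)
    (hab : IsMulCommutative Q) (X : Subgroup G) :
    Cfsg.IsMinimalCentrallyLarge X ↔ X ∈ Cfsg.maxAbelianSubgroups G := by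
  have hQ' := (isCentrallyLarge_iff Q).mp hQ.1
  have hCQ : Subgroup.centralizer (Q : Set G) = Q :=
    le_antisymm hQ'.2 (Subgroup.le_centralizer_iff_isMulCommutative.mpr hab)
  have hM : Nat.card Q * Nat.card Q = Cfsg.maxCentralizerProduct G := by
    have := hQ'.1
    rw [isCentralizerLarge_iff] at this
    unfold cdm at this
    rwa [hCQ] at this
  have hbound : ∀ B : Subgroup G, IsMulCommutative B → Nat.card B ≤ Nat.card Q := by
    intro B hB
    have h1 : Nat.card B ≤ Nat.card (Subgroup.centralizer (B : Set G)) :=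
      Subgroup.card_le_of_le (Subgroup.le_centralizer_iff_isMulCommutative.mpr hB)
    have h2 := cdm_le_max B
    unfold cdm at h2
    rw [← hM] at h2
    have h3 : Nat.card B * Nat.card B ≤ Nat.card Q * Nat.card Q :=
      (Nat.mul_le_mul_left _ h1).trans h2
    exact Nat.mul_self_le_mul_self_iff.mp h3
  constructor
  · intro hX
    have hcomm : ⁅X, X⁆ = ⊥ := by
      rw [mcl_commutator_eq hX hQ.1, inf_comm, ← mcl_commutator_eq hQ hX.1,
        Subgroup.commutator_eq_bot_iff_le_centralizer]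
      exact Subgroup.le_centralizer_iff_isMulCommutative.mpr hab
    rw [Subgroup.commutator_eq_bot_iff_le_centralizer,
      Subgroup.le_centralizer_iff_isMulCommutative] at hcomm
    refine ⟨hcomm, ?_⟩
    intro B hB
    rw [(mcl_card_eq hX hQ).1]
    exact hbound B hB
  · intro hX
    have hcard : Nat.card X = Nat.card Q := le_antisymm (hbound X hX.1) (hX.2 Q hab)
    have hCX := maxAb_centralizer_eq hX
    refine ⟨?_, ?_⟩
    · rw [isCentrallyLarge_iff]
      refine ⟨?_, hCX.le⟩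
      rw [isCentralizerLarge_iff]
      unfold cdm
      rw [hCX, hcard, hM]
    · intro X' hle hX'
      have hX'' := (isCentrallyLarge_iff X').mp hX'
      have hab' : IsMulCommutative X' := isMulCommutative_of_le hX.1 hle
      have hCX' : Subgroup.centralizer (X' : Set G) = X' :=
        le_antisymm hX''.2 (Subgroup.le_centralizer_iff_isMulCommutative.mpr hab')
      have h1 := hX''.1
      rw [isCentralizerLarge_iff] at h1
      unfold cdm at h1
      rw [hCX', ← hM, ← hcard] at h1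
      exact Subgroup.eq_of_le_of_card_ge hle (Nat.mul_self_inj.mp h1).ge

end Cfsg.Agent.Lib.Helper56
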