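import Mathlib
import Cfsg.Agent.Lib.Helper56.Basic
import Cfsg.Agent.Lib.Helper40.Alperin

set_option autoImplicit false

namespace Cfsg.Agent.Lib.Helper56

open scoped Pointwise

variable {G : Type*} [Group G]

/-- An element normalizing a cyclic subgroup `Q`, of order prime to `φ(|Q|)`, centralizes `Q`. -/
theorem mem_centralizer_of_isCyclic [Finite G] (Q : Subgroup G) (hQ : IsCyclic Q) (y : G)
    (hy : y ∈ Subgroup.normalizer (Q : Set G))
    (hc : (orderOf y).Coprime (Nat.totient (Nat.card Q))) :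
    y ∈ Subgroup.centralizer (Q : Set G) := by
  have h1 : orderOf (Q.normalizerMonoidHom ⟨y, hy⟩) ∣ orderOf y := by
    have := orderOf_map_dvd Q.normalizerMonoidHom (⟨y, hy⟩ : Subgroup.normalizer (Q : Set G))
    rwa [Subgroup.orderOf_mk] at this
  have h2 : orderOf (Q.normalizerMonoidHom ⟨y, hy⟩) ∣ Nat.totient (Nat.card Q) := by
    rw [← IsCyclic.card_mulAut Q]
    exact orderOf_dvd_natCard _
  have h3 : orderOf (Q.normalizerMonoidHom ⟨y, hy⟩) = 1 := Nat.eq_one_of_dvd_coprimes hc h1 h2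
  have h4 : (⟨y, hy⟩ : Subgroup.normalizer (Q : Set G)) ∈ Q.normalizerMonoidHom.ker := by
    rw [MonoidHom.mem_ker]
    exact orderOf_eq_one_iff.mp h3
  rw [Subgroup.normalizerMonoidHom_ker, Subgroup.mem_subgroupOf] at h4
  exact h4

/-- If `x` normalizes `D₀ ≤ D` with `|D : D₀| = p` and the order of `x` is prime to `p - 1`, then
`x` acts trivially on `D / D₀`. -/
theorem conj_mul_inv_mem_of_relIndex_prime [Finite G] {p : ℕ} [Fact p.Prime] (D₀ D : Subgroup G)
    (hn : D ≤ Subgroup.normalizer (D₀ : Set G)) (hidx : D₀.relIndex D = p) (x : G)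
    (hx : x ∈ Subgroup.normalizer (D : Set G)) (hx0 : x ∈ Subgroup.normalizer (D₀ : Set G))
    (hc : (orderOf x).Coprime (p - 1)) (u : G) (hu : u ∈ D) : x * u * x⁻¹ * u⁻¹ ∈ D₀ := by
  have hp : p.Prime := Fact.out
  set N₀ := Subgroup.normalizer (D₀ : Set G) with hN₀
  have : (D₀.subgroupOf N₀).Normal := Subgroup.normal_in_normalizer
  set π := QuotientGroup.mk' (D₀.subgroupOf N₀) with hπ
  set C := (D.subgroupOf N₀).map π with hC
  have hcard : Nat.card C = p := by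
    rw [hC, ← Subgroup.relIndex_ker, hπ, QuotientGroup.ker_mk', Subgroup.relIndex_subgroupOf hn, hidx]
  have hcyc : IsCyclic C := isCyclic_of_prime_card hcard
  have hxn : π ⟨x, hx0⟩ ∈ Subgroup.normalizer (C : Set (N₀ ⧸ D₀.subgroupOf N₀)) := by
    apply mem_normalizer_of_map_le
    rintro _ ⟨_, ⟨e, he, rfl⟩, rfl⟩
    refine ⟨⟨x, hx0⟩ * e * ⟨x, hx0⟩⁻¹, ?_, ?_⟩
    · rw [SetLike.mem_coe, Subgroup.mem_subgroupOf] at he ⊢
      exact (Subgroup.mem_normalizer_iff.mp hx _).mp he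
    · simp
  have hord : (orderOf (π ⟨x, hx0⟩)).Coprime (Nat.totient (Nat.card C)) := by
    rw [hcard, Nat.totient_prime hp]
    apply Nat.Coprime.coprime_dvd_left _ hc
    have := orderOf_map_dvd π (⟨x, hx0⟩ : N₀)
    rwa [Subgroup.orderOf_mk] at this
  have hcen := mem_centralizer_of_isCyclic C hcyc _ hxn hord
  have hu' : π ⟨u, hn hu⟩ ∈ C := ⟨⟨u, hn hu⟩, by rw [SetLike.mem_coe, Subgroup.mem_subgroupOf]; exact hu, rfl⟩
  have h1 := Subgroup.mem_centralizer_iff.mp hcen _ hu'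
  have h2 : π (⟨x, hx0⟩ * ⟨u, hn hu⟩ * ⟨x, hx0⟩⁻¹ * ⟨u, hn hu⟩⁻¹) = 1 := by
    rw [map_mul, map_mul, map_mul, map_inv, map_inv, ← h1]
    group
  rw [hπ, QuotientGroup.mk'_apply, QuotientGroup.eq_one_iff, Subgroup.mem_subgroupOf] at h2
  exact h2

/-- second form -/
theorem inv_mul_conj_mem_of_relIndex_prime [Finite G] {p : ℕ} [Fact p.Prime] (D₀ D : Subgroup G)
    (hn : D ≤ Subgroup.normalizer (D₀ : Set G)) (hidx : D₀.relIndex D = p) (x : G)
    (hx : x ∈ Subgroup.normalizer (D : Set G)) (hx0 : x ∈ Subgroup.normalizer (D₀ : Set G))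
    (hc : (orderOf x).Coprime (p - 1)) (u : G) (hu : u ∈ D) : u⁻¹ * (x⁻¹ * u * x) ∈ D₀ := by
  have := conj_mul_inv_mem_of_relIndex_prime D₀ D hn hidx x⁻¹ (inv_mem hx) (inv_mem hx0)
    (by rwa [orderOf_inv]) u⁻¹ (inv_mem hu)
  have h2 := inv_mem this
  convert h2 using 1
  group

/-- Subgroups of every intermediate order in a `p`-subgroup. -/
theorem exists_between_card [Finite G] {p : ℕ} [Fact p.Prime] {H D : Subgroup G} (hHD : H ≤ D)
    {n m : ℕ} (hH : Nat.card H = p ^ n) (hnm : n ≤ m) (hD : p ^ m ∣ Nat.card D) :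
    ∃ K : Subgroup G, H ≤ K ∧ K ≤ D ∧ Nat.card K = p ^ m := by
  have h1 : Nat.card (H.subgroupOf D) = p ^ n := by
    rw [← hH]
    exact Nat.card_congr (Subgroup.subgroupOfEquivOfLe hHD).toEquiv
  obtain ⟨K, hK, hHK⟩ := Sylow.exists_subgroup_card_pow_prime_le p hD (H.subgroupOf D) h1 hnm
  refine ⟨K.map D.subtype, ?_, Subgroup.map_subtype_le K, ?_⟩
  · intro x hx
    exact ⟨⟨x, hHD hx⟩, hHK (by rw [Subgroup.mem_subgroupOf]; exact hx), rfl⟩
  · rw [Subgroup.card_map_of_injective D.subtype_injective, hK]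

/-- If `C ⊴ N` contains all `p'`-elements of `N` and `R` has index prime to `p` in `N`, then
`N = C R`. -/
theorem exists_mul_of_relSylow [Finite G] {p : ℕ} [Fact p.Prime] (N C R : Subgroup G) (hCN : C ≤ N)
    (hRN : R ≤ N) (hnorm : N ≤ Subgroup.normalizer (C : Set G)) (hR : ¬ p ∣ R.relIndex N)
    (hC : ∀ y ∈ N, (orderOf y).Coprime p → y ∈ C) :
    ∀ x ∈ N, ∃ c ∈ C, ∃ r ∈ R, x = c * r := by
  have hp : p.Prime := Fact.out
  have hL : ((C ⊔ R : Subgroup G) : Set G) = (C : Set G) * (R : Set G) :=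
    Subgroup.coe_mul_of_right_le_normalizer_left C R (hRN.trans hnorm)
  have hLN : C ⊔ R ≤ N := sup_le hCN hRN
  have hidx : (C ⊔ R).relIndex N = 1 := by
    by_contra hne
    obtain ⟨q, hq, hqd⟩ := Nat.exists_prime_and_dvd hne
    by_cases hqp : q = p
    · subst hqp
      exact hR (hqd.trans (Subgroup.relIndex_dvd_of_le_left N le_sup_right))
    · have : Fact q.Prime := ⟨hq⟩
      obtain ⟨S⟩ : Nonempty (Sylow q N) := inferInstance
      have hS : (S : Subgroup N) ≤ (C ⊔ R).subgroupOf N := by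
        intro s hs
        rw [Subgroup.mem_subgroupOf]
        apply (le_sup_left : C ≤ C ⊔ R)
        apply hC _ s.2
        obtain ⟨k, hk⟩ := S.2 ⟨s, hs⟩
        have hk' : (s : G) ^ q ^ k = 1 := by
          have := congrArg (fun z : (S : Subgroup N) => ((z : N) : G)) hk
          simpa using this
        have h1 : orderOf (s : G) ∣ q ^ k := orderOf_dvd_of_pow_eq_one hk'
        apply Nat.Coprime.coprime_dvd_left h1
        apply Nat.Coprime.pow_left
        exact (Nat.coprime_primes hq hp).mpr hqp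
      exact S.not_dvd_index (hqd.trans (Subgroup.index_dvd_of_le hS))
  have hle : N ≤ C ⊔ R := Subgroup.relIndex_eq_one.mp hidx
  intro x hx
  have hx' : x ∈ ((C ⊔ R : Subgroup G) : Set G) := hle hx
  rw [hL] at hx'
  obtain ⟨c, hc, r, hr, rfl⟩ := hx'
  exact ⟨c, hc, r, hr, rfl⟩

/-- The `ℋ`-property: `g E g⁻¹ ∩ N_G(E) ≤ E` for all `g`. -/
def IsH (E : Subgroup G) : Prop :=
  ∀ g : G, E.map (MulAut.conj g).toMonoidHom ⊓ Subgroup.normalizer (E : Set G) ≤ E

/-- An `ℋ`-subgroup contained in a `p`-subgroup is normal in it. -/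
theorem IsH.le_normalizer [Finite G] {p : ℕ} [Fact p.Prime] {E P : Subgroup G} (hE : IsH E)
    (hEP : E ≤ P) (hP : IsPGroup p P) : P ≤ Subgroup.normalizer (E : Set G) := by
  by_contra hcon
  have hlt : P ⊓ Subgroup.normalizer (E : Set G) < P :=
    lt_of_le_of_ne inf_le_left (fun h => hcon (inf_eq_left.mp h))
  have h2 := Cfsg.Agent.Lib.Helper40.lt_inf_normalizer hP hlt
  obtain ⟨s, hs, hs'⟩ := SetLike.exists_of_lt h2
  apply hs'
  refine ⟨hs.1, ?_⟩
  apply mem_normalizer_of_map_le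
  intro z hz
  apply hE s
  refine ⟨hz, ?_⟩
  obtain ⟨e, he, rfl⟩ := hz
  have he' : e ∈ P ⊓ Subgroup.normalizer (E : Set G) := ⟨hEP he, Subgroup.le_normalizer he⟩
  exact ((Subgroup.mem_normalizer_iff.mp hs.2 e).mp he').2

/-- An `ℋ`-subgroup of a `p`-subgroup `P` is strongly closed in `P`. -/
theorem IsH.conj_mem {E P : Subgroup G} (hE : IsH E) (hP : P ≤ Subgroup.normalizer (E : Set G))
    {x : G} (hx : x ∈ E) (g : G) (hg : g * x * g⁻¹ ∈ P) : g * x * g⁻¹ ∈ E :=
  hE g ⟨⟨x, hx, rfl⟩, hP hg⟩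

end Cfsg.Agent.Lib.Helper56
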