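import Mathlib
import Cfsg.Agent.Lib.Helper56.HSub
import Cfsg.Agent.Lib.Helper11.OmegaAut
import Cfsg.Agent.Lib.Helper3.PGroup
import Cfsg.Agent.Lib.Helper2.Hyperfocal
import Cfsg.Agent.S0029

set_option autoImplicit false

namespace Cfsg.Agent.Lib.Helper56

variable {G : Type*} [Group G]

/-- If `y` normalizes `K` and acts trivially on `K` modulo `M`, so does every power of `y`. -/
theorem conj_mul_inv_mem_of_mem_zpowers (M K : Subgroup G) (y : G)
    (hyK : y ∈ Subgroup.normalizer (K : Set G)) (h : ∀ k ∈ K, y * k * y⁻¹ * k⁻¹ ∈ M) :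
    ∀ a ∈ Subgroup.zpowers y, ∀ k ∈ K, a * k * a⁻¹ * k⁻¹ ∈ M := by
  let S : Subgroup G :=
    { carrier := {a | a ∈ Subgroup.normalizer (K : Set G) ∧ ∀ k ∈ K, a * k * a⁻¹ * k⁻¹ ∈ M}
      one_mem' := ⟨one_mem _, fun k _ => by simp⟩
      mul_mem' := by
        rintro a b ⟨ha, ha'⟩ ⟨hb, hb'⟩
        refine ⟨mul_mem ha hb, fun k hk => ?_⟩
        have hbk : b * k * b⁻¹ ∈ K := (Subgroup.mem_normalizer_iff.mp hb k).mp hk
        have := mul_mem (ha' _ hbk) (hb' k hk)
        convert this using 1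
        group
      inv_mem' := by
        rintro a ⟨ha, ha'⟩
        refine ⟨inv_mem ha, fun k hk => ?_⟩
        have hak : a⁻¹ * k * a⁻¹⁻¹ ∈ K := (Subgroup.mem_normalizer_iff.mp (inv_mem ha) k).mp hk
        have := inv_mem (ha' _ hak)
        convert this using 1
        group }
  have hy : y ∈ S := ⟨hyK, h⟩
  intro a ha
  exact ((Subgroup.zpowers_le.mpr hy) ha).2

/-- A non-cyclic group of order `p ^ (d + 1)` is the join of any subgroup of order `p ^ d` with a
second one. -/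
theorem exists_sup_eq_of_not_isCyclic [Finite G] {p : ℕ} [Fact p.Prime] {d : ℕ} (E E₂ : Subgroup G)
    (hE : E ≤ E₂) (hcE : Nat.card E = p ^ d) (hcE₂ : Nat.card E₂ = p ^ (d + 1))
    (hnc : ¬ IsCyclic E₂) :
    ∃ M : Subgroup G, M ≤ E₂ ∧ Nat.card M = p ^ d ∧ E ⊔ M = E₂ := by
  have hp : p.Prime := Fact.out
  have hne : ¬ E₂ ≤ E := by
    intro h
    have := Subgroup.card_le_of_le h
    rw [hcE, hcE₂] at this
    exact absurd this (not_le.mpr (Nat.pow_lt_pow_right hp.one_lt (Nat.lt_succ_self d)))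
  obtain ⟨v, hv, hvE⟩ := SetLike.not_le_iff_exists.mp hne
  have hz : Subgroup.zpowers v ≤ E₂ := Subgroup.zpowers_le.mpr hv
  have hdvd : Nat.card (Subgroup.zpowers v) ∣ p ^ (d + 1) := hcE₂ ▸ Subgroup.card_dvd_of_le hz
  obtain ⟨j, hj, hcj⟩ := (Nat.dvd_prime_pow hp).mp hdvd
  have hjd : j ≤ d := by
    by_contra hcon
    have hj' : j = d + 1 := by omega
    apply hnc
    have heq : Subgroup.zpowers v = E₂ :=
      Subgroup.eq_of_le_of_card_ge hz (by rw [hcj, hcE₂, hj'])
    rw [← heq]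
    infer_instance
  obtain ⟨M, hzM, hME, hcM⟩ := exists_between_card hz hcj hjd
    (hcE₂ ▸ pow_dvd_pow p (Nat.le_succ d))
  refine ⟨M, hME, hcM, ?_⟩
  have hle : E ⊔ M ≤ E₂ := sup_le hE hME
  apply Subgroup.eq_of_le_of_card_ge hle
  have hdvd2 : Nat.card (E ⊔ M : Subgroup G) ∣ p ^ (d + 1) := hcE₂ ▸ Subgroup.card_dvd_of_le hle
  obtain ⟨i, hi, hci⟩ := (Nat.dvd_prime_pow hp).mp hdvd2
  have hlt : E < E ⊔ M := by
    refine lt_of_le_of_ne le_sup_left ?_
    intro heq
    apply hvE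
    rw [heq]
    exact (le_sup_right : M ≤ E ⊔ M) (hzM (Subgroup.mem_zpowers v))
  have hclt := Cfsg.Agent.Lib.Helper40.card_lt_of_lt hlt
  rw [hcE, hci] at hclt
  have hdi : d < i := (Nat.pow_lt_pow_iff_right hp.one_lt).mp hclt
  rw [hcE₂, hci]
  exact Nat.pow_le_pow_right hp.pos hdi

/-- Key lemma: a `p'`-element `y` normalizing a `p`-group `D` of order `> p ^ d` and all its
subgroups of order `p ^ d` (and `4` when `p ^ d = 2`), acting trivially on the relevant sections of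
order `p` and on the relevant cyclic subgroups, centralizes `D`. -/
theorem mem_centralizer_of_normalizes_card [Finite G] {p : ℕ} [Fact p.Prime] (D : Subgroup G)
    (hD : IsPGroup p D) (d : ℕ) (hd : 1 ≤ d) (hlt : p ^ d < Nat.card D) (y : G)
    (hy : y ∈ Subgroup.normalizer (D : Set G)) (hy1 : (orderOf y).Coprime p)
    (hE : ∀ E : Subgroup G, E ≤ D → Nat.card E = p ^ d → y ∈ Subgroup.normalizer (E : Set G))
    (hsec : ∀ D₀ E M : Subgroup G, E ≤ D → M ≤ D → D₀ ≤ E ⊔ M → Nat.card D₀ = p ^ d →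
      Nat.card E = p ^ d → Nat.card M = p ^ d → Nat.card (E ⊔ M : Subgroup G) = p ^ (d + 1) →
      ∀ u ∈ E ⊔ M, y * u * y⁻¹ * u⁻¹ ∈ D₀)
    (hcyc : ∀ Q : Subgroup G, Q ≤ D → IsCyclic Q →
      (Nat.card Q = p ^ d ∨ (p ^ d = 2 ∧ Nat.card Q = 4)) → y ∈ Subgroup.centralizer (Q : Set G)) :
    y ∈ Subgroup.centralizer (D : Set G) := by
  have hp : p.Prime := Fact.out
  obtain ⟨n, hn⟩ := hD.exists_card_eq
  have hdn : d < n := by
    rw [hn] at hlt
    exact (Nat.pow_lt_pow_iff_right hp.one_lt).mp hlt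
  -- Step 1
  have step1 : ∀ E : Subgroup G, E ≤ D → Nat.card E = p ^ d →
      y ∈ Subgroup.centralizer (E : Set G) := by
    intro E hED hcE
    by_cases hEc : IsCyclic E
    · exact hcyc E hED hEc (Or.inl hcE)
    obtain ⟨E₂, hEE₂, hE₂D, hcE₂⟩ := exists_between_card hED hcE (Nat.le_succ d)
      (hn ▸ pow_dvd_pow p hdn)
    have hnc : ¬ IsCyclic E₂ := by
      intro h
      apply hEc
      have : IsCyclic (E.subgroupOf E₂) := inferInstance
      exact isCyclic_of_surjective (Subgroup.subgroupOfEquivOfLe hEE₂).toMonoidHom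
        (Subgroup.subgroupOfEquivOfLe hEE₂).surjective
    obtain ⟨M, hME₂, hcM, hsup⟩ := exists_sup_eq_of_not_isCyclic E E₂ hEE₂ hcE hcE₂ hnc
    have hMD : M ≤ D := hME₂.trans hE₂D
    have hyE₂ : y ∈ Subgroup.normalizer (E₂ : Set G) := by
      have h1 : Subgroup.zpowers y ≤ Subgroup.normalizer (E : Set G) :=
        Subgroup.zpowers_le.mpr (hE E hED hcE)
      have h2 : Subgroup.zpowers y ≤ Subgroup.normalizer (M : Set G) :=
        Subgroup.zpowers_le.mpr (hE M hMD hcM)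
      have := Cfsg.Agent.Lib.Helper2.le_normalizer_sup h1 h2
      rw [hsup] at this
      exact this (Subgroup.mem_zpowers y)
    have hE₂p : IsPGroup p E₂ := hD.to_le hE₂D
    have hcen : Subgroup.zpowers y ≤ Subgroup.centralizer (E₂ : Set G) := by
      apply Cfsg.Agent.S0029.result (Subgroup.zpowers y) E₂ (Subgroup.zpowers_le.mpr hyE₂)
      · rw [Nat.card_zpowers]
        obtain ⟨k, hk⟩ := (hE₂p.to_subgroup (frattini E₂)).exists_card_eq
        rw [hk]
        exact Nat.Coprime.pow_right k hy1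
      · intro a ha k hk
        have haN : a ∈ Subgroup.normalizer (E₂ : Set G) := (Subgroup.zpowers_le.mpr hyE₂) ha
        have hmem : a * k * a⁻¹ * k⁻¹ ∈ E₂ :=
          mul_mem ((Subgroup.mem_normalizer_iff.mp haN k).mp hk) (inv_mem hk)
        refine ⟨⟨_, hmem⟩, ?_, rfl⟩
        rw [SetLike.mem_coe, Cfsg.Agent.Lib.Helper3.mem_frattini_iff]
        intro M' hM'
        have hidx := Cfsg.Agent.Lib.Helper3.coatom_index hE₂p hM'
        have hcM' : Nat.card (M'.map E₂.subtype) = p ^ d := by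
          rw [Subgroup.card_map_of_injective E₂.subtype_injective]
          have h1 := M'.card_mul_index
          rw [hidx, hcE₂, pow_succ] at h1
          exact Nat.eq_of_mul_eq_mul_right hp.pos h1
        have hle : M'.map E₂.subtype ≤ E ⊔ M := hsup ▸ Subgroup.map_subtype_le M'
        have h3 := conj_mul_inv_mem_of_mem_zpowers (M'.map E₂.subtype) E₂ y hyE₂
          (by
            intro u hu
            exact hsec _ E M hED hMD hle hcM' hcE hcM (hsup ▸ hcE₂) u (hsup ▸ hu)) a ha k hk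
        obtain ⟨w, hw, hw'⟩ := h3
        have : w = ⟨_, hmem⟩ := Subtype.ext hw'
        rwa [← this]
    exact Subgroup.centralizer_le (by exact_mod_cast hEE₂) (hcen (Subgroup.mem_zpowers y))
  -- Step 2
  have step2 : ∀ x ∈ D, ∀ j ≤ d, Nat.card (Subgroup.zpowers x) = p ^ j → y * x = x * y := by
    intro x hx j hj hcj
    obtain ⟨E, hzE, hED, hcE⟩ := exists_between_card (Subgroup.zpowers_le.mpr hx) hcj hj
      (hn ▸ pow_dvd_pow p hdn.le)
    exact (Subgroup.mem_centralizer_iff.mp (step1 E hED hcE) x (hzE (Subgroup.mem_zpowers x))).symm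
  apply Cfsg.Agent.Lib.Helper11.mem_centralizer_of_fix_omega D hD y hy hy1
  intro x hx hx'
  have hcase : ∀ j, Nat.card (Subgroup.zpowers x) = p ^ j → j ≤ 1 → y * x = x * y :=
    fun j hj hj1 => step2 x hx j (hj1.trans hd) hj
  rcases hx' with hxp | ⟨hp2, hx4⟩
  · have h1 : Nat.card (Subgroup.zpowers x) ∣ p ^ 1 := by
      rw [Nat.card_zpowers, pow_one]
      exact orderOf_dvd_of_pow_eq_one hxp
    obtain ⟨j, hj, hcj⟩ := (Nat.dvd_prime_pow hp).mp h1
    exact hcase j hcj hj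
  · have h1 : Nat.card (Subgroup.zpowers x) ∣ p ^ 2 := by
      rw [Nat.card_zpowers, hp2]
      exact orderOf_dvd_of_pow_eq_one hx4
    obtain ⟨j, hj, hcj⟩ := (Nat.dvd_prime_pow hp).mp h1
    by_cases hj1 : j ≤ d
    · exact step2 x hx j hj1 hcj
    · have hd1 : d = 1 := by omega
      have hj2 : j = 2 := by omega
      have := hcyc (Subgroup.zpowers x) (Subgroup.zpowers_le.mpr hx) inferInstance
        (Or.inr ⟨by rw [hd1, hp2]; norm_num, by rw [hcj, hj2, hp2]; norm_num⟩)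
      exact (Subgroup.mem_centralizer_iff.mp this x (Subgroup.mem_zpowers x)).symm

end Cfsg.Agent.Lib.Helper56
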