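import Mathlib
import Cfsg.Agent.Lib.Helper56.Basic

set_option autoImplicit false
open scoped Pointwise

namespace Cfsg.Agent.Lib.Helper56

variable {G : Type*} [Group G]

theorem transfer_main_term (M : Subgroup G) {A : Type*} [CommGroup A] (ϕ : M →* A) (x : M)
    (c : G ⧸ M) (hc : c = ((1 : G) : G ⧸ M))
    (h : c.out⁻¹ * (x : G) ^ Function.minimalPeriod ((x : G) • ·) c * c.out ∈ M) :
    ϕ ⟨c.out⁻¹ * (x : G) ^ Function.minimalPeriod ((x : G) • ·) c * c.out, h⟩ = ϕ x := by
  have hfix : Function.IsFixedPt ((x : G) • ·) c := by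
    subst hc
    show (x : G) • ((1 : G) : G ⧸ M) = ((1 : G) : G ⧸ M)
    rw [MulAction.Quotient.smul_coe, QuotientGroup.eq]
    simp
  have hper : Function.minimalPeriod ((x : G) • ·) c = 1 :=
    Function.minimalPeriod_eq_one_iff_isFixedPt.mpr hfix
  have hout : c.out ∈ M := by
    have h1 : ((c.out : G) : G ⧸ M) = ((1 : G) : G ⧸ M) := by rw [QuotientGroup.out_eq', hc]
    rw [QuotientGroup.eq] at h1
    simpa using h1
  have : (⟨c.out⁻¹ * (x : G) ^ Function.minimalPeriod ((x : G) • ·) c * c.out, h⟩ : M) =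
      (⟨c.out, hout⟩ : M)⁻¹ * x * ⟨c.out, hout⟩ := by
    apply Subtype.ext
    simp [hper]
  rw [this, map_mul, map_mul, map_inv, mul_comm, ← mul_assoc, mul_inv_cancel, one_mul]

/-- If no element of `M` is fused into `M \ ker ϕ` by an element outside `M`,
the transfer restricted to `M` is `ϕ`. -/
theorem transfer_eq_of_fusion [Finite G] (M : Subgroup G) {A : Type*} [CommGroup A] (ϕ : M →* A)
    (hfus : ∀ g : G, g ∉ M → ∀ y : G, y ∈ M → ∀ h : g⁻¹ * y * g ∈ M, ϕ ⟨g⁻¹ * y * g, h⟩ = 1)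
    (x : M) : MonoidHom.transfer ϕ (x : G) = ϕ x := by
  classical
  letI := Fintype.ofFinite (Quotient (MulAction.orbitRel (Subgroup.zpowers (x : G)) (G ⧸ M)))
  rw [MonoidHom.transfer_eq_prod_quotient_orbitRel_zpowers_quot]
  have hfix : ∀ z ∈ Subgroup.zpowers (x : G), z • ((1 : G) : G ⧸ M) = ((1 : G) : G ⧸ M) := by
    intro z hz
    have hzM : z ∈ M := (Subgroup.zpowers_le.mpr x.2) hz
    rw [MulAction.Quotient.smul_coe, QuotientGroup.eq]
    simpa using hzM
  rw [Finset.prod_eq_single (Quotient.mk'' ((1 : G) : G ⧸ M) :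
    Quotient (MulAction.orbitRel (Subgroup.zpowers (x : G)) (G ⧸ M)))]
  · apply transfer_main_term
    have h1 := Quotient.mk_out (s := MulAction.orbitRel (Subgroup.zpowers (x : G)) (G ⧸ M))
      ((1 : G) : G ⧸ M)
    obtain ⟨z, hz⟩ := h1
    rw [← hz]
    exact hfix z z.2
  · intro q _ hq
    apply hfus
    · intro hmem
      apply hq
      have h1 : q.out = ((1 : G) : G ⧸ M) := by
        rw [← QuotientGroup.out_eq' q.out, QuotientGroup.eq]
        simpa using hmem
      rw [← Quotient.out_eq q, h1]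
    · exact M.pow_mem x.2 _
  · intro h
    exact absurd (Finset.mem_univ _) h

/-- consequence: a normal subgroup cutting `M` in `ker ϕ`, with abelian quotient. -/
theorem exists_normal_of_fusion [Finite G] (M : Subgroup G) {A : Type*} [CommGroup A] (ϕ : M →* A)
    (hfus : ∀ g : G, g ∉ M → ∀ y : G, y ∈ M → ∀ h : g⁻¹ * y * g ∈ M, ϕ ⟨g⁻¹ * y * g, h⟩ = 1) :
    ∃ N : Subgroup G, N.Normal ∧ N.subgroupOf M = ϕ.ker ∧ commutator G ≤ N := by
  refine ⟨(MonoidHom.transfer ϕ).ker, inferInstance, ?_, ?_⟩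
  · ext x
    rw [Subgroup.mem_subgroupOf, MonoidHom.mem_ker, MonoidHom.mem_ker, transfer_eq_of_fusion M ϕ hfus]
  · exact Abelianization.commutator_subset_ker _

end Cfsg.Agent.Lib.Helper56
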